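import Cfsg.Statements.S1918

/-!
# A 2-local subgroup `E₁₆ : L₄(2)`: the hypothesis (helper15)
-/

set_option autoImplicit false

namespace Cfsg.Lib.HY

open Subgroup

/-- `A` is elementary abelian of order 16 and Sylow in its centralizer; it has a complement in its normalizer, and the
normalizer induces the full automorphism group (of order 20160) on `A`. -/
structure Hy {G : Type*} [Group G] (A : Subgroup G) : Prop where
  sq : ∀ x ∈ A, x * x = 1
  card : Nat.card A = 16
  syl : ¬ 2 ∣ A.relIndex (centralizer (A : Set G))
  ex : ∃ K : Subgroup G, A ⊓ K = ⊥ ∧ A ⊔ K = normalizer (A : Set G)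
  idx : (centralizer (A : Set G)).relIndex (normalizer (A : Set G)) = 20160

end Cfsg.Lib.HY
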