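import Cfsg.Agent.Lib.HY.Def
import Cfsg.Agent.Lib.CT.Base
import Cfsg.Agent.Lib.PGroup.AutGL
import Cfsg.Agent.Lib.Linear.Simple

/-!
# `S1918`, reduction to the simple case: consequences of `Hy`, passage to quotients and normal subgroups.
-/

set_option autoImplicit false

namespace Cfsg.Lib.HY.Rd

open Subgroup Cfsg.Lib.BG Cfsg.Lib.GW
open scoped Cfsg.Lib.Transfer

theorem psl_gl (n : ℕ) [NeZero n] :
    Nonempty (Matrix.ProjectiveSpecialLinearGroup (Fin n) (ZMod 2) ≃* GL (Fin n) (ZMod 2)) := by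
  have h : center (Matrix.SpecialLinearGroup (Fin n) (ZMod 2)) = ⊥ := card_eq_one.1 (by rw [Linear.card_center_SL]; simp)
  exact ⟨((QuotientGroup.quotientMulEquivOfEq h).trans QuotientGroup.quotientBot).trans (MulEquiv.ofBijective
    Matrix.SpecialLinearGroup.toGL ⟨Matrix.SpecialLinearGroup.toGL_injective, fun g =>
      Linear.range_toGL.ge (Subsingleton.elim _ _)⟩)⟩

theorem simple_gl4 : IsSimpleGroup (GL (Fin 4) (ZMod 2)) :=
  let ⟨e⟩ := psl_gl 4
  have := Linear.isSimpleGroup_PSL (ι := Fin 4) (F := ZMod 2) (.inl (by simp))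
  e.symm.isSimpleGroup

theorem card_gl4 : Nat.card (GL (Fin 4) (ZMod 2)) = 20160 := by
  rw [Matrix.card_GL_field]; simp [Fin.prod_univ_four]

theorem comm_of_sq {V : Type*} [Group V] (h : ∀ x : V, x * x = 1) (a b : V) : a * b = b * a := by
  rw [← inv_eq_of_mul_eq_one_left (h (a * b)), mul_inv_rev, inv_eq_of_mul_eq_one_left (h a),
    inv_eq_of_mul_eq_one_left (h b)]

theorem aut_trans {V : Type*} [Group V] [Finite V] (h : ∀ x : V, x * x = 1) {x y : V} (hx : x ≠ 1) (hy : y ≠ 1) :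
    ∃ α : MulAut V, α x = y := by
  let : CommGroup V := { (inferInstance : Group V) with mul_comm := comm_of_sq h }
  let : Module (ZMod 2) (Additive V) := AddCommGroup.zmodModule fun x => by rw [two_nsmul]; exact h x.toMul
  have hv : Additive.ofMul x ≠ 0 := hx
  have hw : Additive.ofMul y ≠ 0 := hy
  obtain ⟨g, hg⟩ := Submodule.exists_linearEquiv_restrict_eq
    ((LinearEquiv.toSpanNonzeroSingleton (ZMod 2) _ _ hv).symm ≪≫ₗ LinearEquiv.toSpanNonzeroSingleton (ZMod 2) _ _ hw)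
  have := hg ⟨_, Submodule.mem_span_singleton_self _⟩
  rw [LinearEquiv.trans_apply, ← LinearEquiv.toSpanNonzeroSingleton_one (ZMod 2) _ _ hv,
    LinearEquiv.symm_apply_apply, LinearEquiv.toSpanNonzeroSingleton_one,
    LinearEquiv.toSpanNonzeroSingleton_one] at this
  exact ⟨MulEquiv.toAdditive.symm g.toAddEquiv, this.symm⟩

variable {G G' : Type*} [Group G] [Finite G] [Group G'] [Finite G'] {A L M : Subgroup G} {x y : G}

section
variable (h : Hy A)
include h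

omit [Finite G] in
theorem sq' (a : A) : a * a = 1 := Subtype.ext (h.sq a a.2)
omit [Finite G] in
theorem le_cent : A ≤ 𝐂(A) := le_cent_iff.2 fun a ha b hb => congrArg Subtype.val (comm_of_sq (sq' h) ⟨a, ha⟩ ⟨b, hb⟩)
omit [Finite G] in
theorem pg : IsPGroup 2 A := IsPGroup.of_card (n := 4) h.card
omit [Finite G] in
theorem ne_bot : A ≠ ⊥ := fun e => absurd h.card (by simp [e])
theorem syl : Syl 2 A 𝐂(A) := Syl.mk' (le_cent h) (pg h) h.syl
theorem tw_mem (hx : CT.Tw x) (hc : x ∈ 𝐂(A)) : x ∈ A :=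
  (syl h).ge_of_norm_p' (zpowers_le.2 hc) hx (zpowers_le.2 (cent_le_norm _ hc)) (mem_zpowers x)

theorem exists_rho : Function.Surjective A.normalizerMonoidHom ∧
    ∃ ρ : 𝐍(A) →* GL (Fin 4) (ZMod 2), Function.Surjective ρ ∧ ρ.ker = 𝐂(A).subgroupOf 𝐍(A) := by
  obtain ⟨f, hf⟩ := PGroup.exists_aut_hom_GL (p := 2) (n := 4) (comm_of_sq (sq' h)) (fun a => by rw [sq, sq' h]) h.card.le
  have k : (f.comp A.normalizerMonoidHom).ker = 𝐂(A).subgroupOf 𝐍(A) := by
    rw [← normalizerMonoidHom_ker, ← MonoidHom.comap_ker, (MonoidHom.ker_eq_bot_iff f).2 hf, MonoidHom.comap_bot]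
  have s : Function.Surjective (f.comp A.normalizerMonoidHom) :=
    MonoidHom.range_eq_top.1 (eq_top_of_card_eq _ (by rw [← index_ker, k, card_gl4]; exact h.idx))
  exact ⟨fun α => (s (f α)).imp fun _ e => hf e, _, s, k⟩

theorem trans (hx : x ∈ A) (hy : y ∈ A) (x1 : x ≠ 1) (y1 : y ≠ 1) : ∃ n ∈ 𝐍(A), n * x * n⁻¹ = y := by
  obtain ⟨α, e⟩ := aut_trans (sq' h) (x := ⟨x, hx⟩) (y := ⟨y, hy⟩) (mt Subtype.ext_iff.1 x1) (mt Subtype.ext_iff.1 y1)
  obtain ⟨n, rfl⟩ := (exists_rho h).1 α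
  exact ⟨n, n.2, congrArg Subtype.val e⟩

theorem cases [L.Normal] : L ⊓ 𝐍(A) ≤ 𝐂(A) ∨ 𝐍(A) ≤ 𝐂(A) ⊔ (L ⊓ 𝐍(A)) := by
  obtain ⟨ρ, s, k⟩ := (exists_rho h).2
  have := simple_gl4
  refine (((inferInstance : (L.subgroupOf 𝐍(A)).Normal).map ρ s).eq_bot_or_eq_top).imp (fun e x hx => ?_) fun e x hx => ?_
  · exact k.le (((Subgroup.map_eq_bot_iff _).1 e) (x := ⟨x, hx.2⟩) hx.1)
  · obtain ⟨y, hy, e⟩ := e.ge (mem_top (ρ ⟨x, hx⟩))
    have : (⟨x, hx⟩ * y⁻¹ : 𝐍(A)) ∈ ρ.ker := by simp [e]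
    simpa using mul_mem (mem_sup_left (T := L ⊓ 𝐍(A)) (k.le this)) (mem_sup_right (S := 𝐂(A)) ⟨hy, y.2⟩)

theorem le_normal (hO : oddCore G = ⊥) [hL : L.Normal] (h1 : L ≠ ⊥) : A ≤ L := by
  obtain ⟨S, hS, le⟩ := Syl.exists_ge (pg h) le_top
  have nL : ∀ X : Subgroup G, X ≤ 𝐍(L) := fun _ => le_top.trans (normalizer_eq_top L).ge
  obtain ⟨x, hx, x1⟩ := exists_ne_one (nil_meet_center hS.nil inf_le_left (norm_inf (le_norm S) (nL S))
    (Syl.ne_bot' (hS.inf le_top (nL S)) (by_contra fun c => h1 (eq_bot_mono hO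
      (Core.le_oddCore hL (Nat.not_even_iff_odd.1 (even_iff_two_dvd.not.2 c)))))))
  intro y hy
  by_cases y1 : y = 1
  · exact y1 ▸ one_mem L
  obtain ⟨n, -, rfl⟩ := trans h (tw_mem h (CT.tw_of_mem hS.pgroup hx.1.1) (cent_anti le hx.2)) hy x1 y1
  exact hL.conj_mem x hx.1.2 n

theorem eq_of_burnside (hO : oddCore G = ⊥) [hL : L.Normal] (h1 : A ≤ L) (h2 : L ⊓ 𝐍(A) ≤ 𝐂(A)) : L = A := by
  have s := Burnside_normal_complement (Syl.of_norm ((syl h).of_le (le_inf h1 (le_norm A)) h2)) h2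
  rw [← s.sup, eq_bot_mono hO (Core.le_oddCore (Nml.top_iff.1 ((Nml.top_iff.2 hL).pcore _)) (odd_Od L)), bot_sup_eq]

/-- `Hy` passes to quotients by normal subgroups of odd order. -/
theorem map {f : G →* G'} (hf : Function.Surjective f) (hk : Odd (Nat.card f.ker)) : Hy (A.map f) := by
  have c := cop_two (pg h) hk
  have d := disjoint_of_coprime c
  have eC := Coprime.centralizer_map_of_surjective f hf c (.inr (odd_sol hk))
  have eN := Coprime.normalizer_map_of_surjective f hf c (.inr (odd_sol hk))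
  have kc : f.ker ⊓ 𝐍(A) ≤ 𝐂(A) := cent_of_norm_of_disjoint inf_le_right
    (norm_inf (le_top.trans (normalizer_eq_top _).ge) (le_norm_of_le (le_norm A)))
    (eq_bot_mono d (le_inf inf_le_right (inf_le_left.trans inf_le_left)))
  obtain ⟨K, h1, h2⟩ := h.ex
  refine ⟨?_, (Nat.card_congr (mapEquiv f d).toEquiv).symm.trans h.card, eC ▸ Syl.not_dvd' ((syl h).map f),
    ⟨K.map f, eq_bot_iff.2 ?_, by rw [← Subgroup.map_sup, h2, eN]⟩, ?_⟩
  · rintro _ ⟨a, ha, rfl⟩; rw [← map_mul, h.sq a ha, map_one]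
  · rintro _ ⟨⟨a, ha, rfl⟩, k, hk', e⟩
    have o : a⁻¹ * k ∈ f.ker := by simp [e]
    have oc := mem_cent.1 (kc ⟨o, 𝐍(A).mul_mem (𝐍(A).inv_mem (le_norm A ha)) (h2.le (mem_sup_right hk'))⟩) a ha
    obtain ⟨m, hm⟩ := hk
    have := pow_mem hk' (2 * m + 1)
    rw [← mul_inv_cancel_left a k, Commute.mul_pow oc, pow_succ, pow_mul, sq, h.sq a ha, one_pow, one_mul, ← hm,
      show (a⁻¹ * k) ^ Nat.card f.ker = 1 from congrArg Subtype.val (pow_card_eq_one' (x := (⟨_, o⟩ : f.ker))), mul_one] at this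
    rw [mem_bot.1 (h1.le ⟨ha, this⟩), map_one]; exact one_mem _
  · rw [eC, eN, ← relIndex_comap, comap_map_eq, ← inf_relIndex_right, sup_comm,
      modular_right (cent_le_norm A) (le_top.trans (normalizer_eq_top _).ge), sup_eq_right.2 kc, h.idx]

/-- `Hy` passes to a normal subgroup covering `N(A) / C(A)`. -/
theorem subOf [L.Normal] (h1 : A ≤ L) (h2 : 𝐍(A) ≤ 𝐂(A) ⊔ (L ⊓ 𝐍(A))) : Hy (A.subgroupOf L) := by
  obtain ⟨K, k1, k2⟩ := h.ex
  refine ⟨fun a ha => Subtype.ext (h.sq a ha), (subOf_card h1).trans h.card, ?_, ⟨K.subgroupOf L, by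
    rw [← subOf_inf, k1, bot_subgroupOf], ?_⟩, ?_⟩
  · rw [subOf_cent h1, ← inf_subgroupOf_right 𝐂(A), relIndex_subgroupOf inf_le_right]
    exact Syl.not_dvd' ((syl h).of_le (le_inf (le_cent h) h1) inf_le_left)
  · rw [subOf_norm h1, ← inf_subgroupOf_right K, ← subOf_sup h1 inf_le_right, ← modular_left h1 (le_sup_right.trans k2.le), k2,
      inf_subgroupOf_right]
  · rw [subOf_cent h1, subOf_norm h1, ← inf_subgroupOf_right 𝐍(A), relIndex_subgroupOf inf_le_right, ← h.idx,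
      ← relIndex_subgroupOf (L := 𝐍(A)) inf_le_left, ← relIndex_subgroupOf (L := 𝐍(A)) le_rfl]
    have : (𝐂(A).subgroupOf 𝐍(A)).Normal := (Nml.cent_norm A).normal
    rw [← relIndex_sup_left, ← subOf_sup (cent_le_norm A) inf_le_left, inf_comm,
      le_antisymm (sup_le (cent_le_norm A) inf_le_right) h2]

end

end Cfsg.Lib.HY.Rd
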